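import Cfsg.Agent.H951.Lin

/-!
# Fixed vectors of `p`-groups modulo a submodule (helper997)
-/

set_option autoImplicit false

namespace Cfsg.Agent.H997.Emb

open Module

variable {F V : Type*} [Field F] [Finite F] [AddCommGroup V] [Module F V] [FiniteDimensional F V]

/-- a `p`-group acting on `U / N ≠ 0` in characteristic `p` has a nonzero fixed vector -/
theorem exists_fixed_mod {p : ℕ} [hp : Fact p.Prime] (hpF : p ∣ Nat.card F) {A : Subgroup (V ≃ₗ[F] V)}
    (hA : IsPGroup p A) {N U : Submodule F V} (hne : ¬ U ≤ N) (hN : ∀ g ∈ A, ∀ x ∈ N, g x ∈ N)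
    (hU : ∀ g ∈ A, ∀ x ∈ U, g x ∈ U) : ∃ x ∈ U, x ∉ N ∧ ∀ g ∈ A, g x - x ∈ N := by
  classical
  have : Finite V := Module.finite_of_finite F
  let N' : Submodule F U := N.comap U.subtype
  let r : A → (U →ₗ[F] U) := fun g => ((g : V ≃ₗ[F] V) : V →ₗ[F] V).restrict (fun x hx => hU g g.2 x hx)
  have hr : ∀ g : A, N' ≤ N'.comap (r g) := by
    intro g x hx
    exact hN g g.2 x hx
  let act : A → (U ⧸ N') → (U ⧸ N') := fun g => N'.mapQ N' (r g) (hr g)
  let _ : MulAction A (U ⧸ N') :=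
    { smul := act
      one_smul := by
        intro b
        obtain ⟨u, rfl⟩ := N'.mkQ_surjective b
        show N'.mapQ N' (r 1) (hr 1) (N'.mkQ u) = N'.mkQ u
        rw [Submodule.mkQ_apply, Submodule.mapQ_apply]
        congr 1
      mul_smul := by
        intro g h b
        obtain ⟨u, rfl⟩ := N'.mkQ_surjective b
        show N'.mapQ N' (r (g * h)) (hr _) (N'.mkQ u) = N'.mapQ N' (r g) (hr g) (N'.mapQ N' (r h) (hr h) (N'.mkQ u))
        rw [Submodule.mkQ_apply, Submodule.mapQ_apply, Submodule.mapQ_apply, Submodule.mapQ_apply]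
        congr 1 }
  have hcard : p ∣ Nat.card (U ⧸ N') := by
    rw [Module.natCard_eq_pow_finrank (K := F)]
    refine dvd_pow hpF ?_
    intro h0
    have : Subsingleton (U ⧸ N') := Module.finrank_zero_iff.1 h0
    apply hne
    intro x hx
    have h1 : (⟨x, hx⟩ : U) ∈ N' := (Submodule.Quotient.mk_eq_zero N').1 (Subsingleton.elim _ _)
    exact h1
  have hfinq : Finite (U ⧸ N') := Module.finite_of_finite F
  obtain ⟨b, hb, hne'⟩ := hA.exists_fixed_point_of_prime_dvd_card_of_fixed_point (U ⧸ N') hcard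
    (a := 0) (fun g => by
      change N'.mapQ N' (r g) (hr g) 0 = 0
      exact map_zero _)
  obtain ⟨u, rfl⟩ := N'.mkQ_surjective b
  refine ⟨u, u.2, fun h => hne' ?_, fun g hg => ?_⟩
  · rw [Submodule.mkQ_apply]
    exact ((Submodule.Quotient.mk_eq_zero N').2 h).symm
  · have h1 := hb ⟨g, hg⟩
    change N'.mapQ N' (r ⟨g, hg⟩) (hr _) (N'.mkQ u) = N'.mkQ u at h1
    rw [Submodule.mkQ_apply, Submodule.mapQ_apply, Submodule.Quotient.eq] at h1
    exact h1

theorem exists_fixed {p : ℕ} [hp : Fact p.Prime] (hpF : p ∣ Nat.card F) {A : Subgroup (V ≃ₗ[F] V)}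
    (hA : IsPGroup p A) {U : Submodule F V} (hne : U ≠ ⊥) (hU : ∀ g ∈ A, ∀ x ∈ U, g x ∈ U) :
    ∃ x ∈ U, x ≠ 0 ∧ ∀ g ∈ A, g x = x := by
  obtain ⟨x, h1, h2, h3⟩ := exists_fixed_mod hpF hA (N := ⊥) (U := U) (fun h => hne (le_bot_iff.1 h))
    (fun g _ x hx => by rw [Submodule.mem_bot] at hx ⊢; rw [hx, map_zero]) hU
  refine ⟨x, h1, fun h => h2 ((Submodule.mem_bot F).2 h), fun g hg => ?_⟩
  have := h3 g hg
  rwa [Submodule.mem_bot, sub_eq_zero] at this

end Cfsg.Agent.H997.Emb
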