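import Mathlib

/-!
# Lifting subgroups through central extensions of coprime order (helper997)
-/

set_option autoImplicit false

namespace Cfsg.Agent.H997.Emb

open scoped IsMulCommutative

theorem exists_lift {P S : Type*} [Group P] [Finite P] [Group S] (π : P →* S) (hs : Function.Surjective π)
    (hZ : π.ker ≤ Subgroup.center P) (A : Subgroup S) (hco : (Nat.card A).Coprime (Nat.card π.ker)) :
    ∃ B : Subgroup P, (∀ g, g ∈ B ↔ π g ∈ A ∧ g ^ Nat.card A = 1) ∧ B.map π = A ∧ Nat.card B = Nat.card A ∧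
      (∀ g ∈ B, π g = 1 → g = 1) := by
  classical
  have hfin : Finite S := Finite.of_surjective π hs
  set N := Nat.card A with hN
  let φ : A.comap π →* A := π.subgroupComap A
  have hφs : Function.Surjective φ := π.subgroupComap_surjective_of_surjective A hs
  have hφ1 : ∀ x, φ x = 1 ↔ π (x : P) = 1 := fun x => by
    rw [Subtype.ext_iff]
    rfl
  have hK : φ.ker ≤ Subgroup.center (A.comap π) := by
    intro x hx
    rw [MonoidHom.mem_ker, hφ1] at hx
    rw [Subgroup.mem_center_iff]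
    intro g
    exact Subtype.ext (Subgroup.mem_center_iff.1 (hZ hx) g)
  have hidx : φ.ker.index = N := by
    rw [Subgroup.index_ker, MonoidHom.range_eq_top.2 hφs, Subgroup.card_top]
  let ϕ : φ.ker →* Subgroup.center (A.comap π) := Subgroup.inclusion hK
  have hfi : φ.ker.FiniteIndex := ⟨by rw [hidx]; exact Nat.card_pos.ne'⟩
  have key : ∀ (g : A.comap π) (k : ℕ) (g₀ : A.comap π), g₀⁻¹ * g ^ k * g₀ ∈ φ.ker → g₀⁻¹ * g ^ k * g₀ = g ^ k := by
    intro g k g₀ h
    have h1 := Subgroup.mem_center_iff.1 (hK h) g₀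
    rw [mul_assoc, mul_assoc, mul_inv_cancel_left] at h1
    rw [mul_assoc]
    have h2 : g ^ k * g₀ = g₀ * (g₀⁻¹ * (g ^ k * g₀)) := by rw [mul_inv_cancel_left]
    have h3 : g₀⁻¹ * (g ^ k * g₀) * g₀ = g ^ k * g₀ := by
      rw [mul_assoc]
      exact h1.symm
    exact mul_right_cancel h3
  let τ := MonoidHom.transfer (H := φ.ker) (A := Subgroup.center (A.comap π)) ϕ
  have hτ : ∀ g, τ g = 1 ↔ (g : P) ^ N = 1 := by
    intro g
    have h1 : τ g = _ := MonoidHom.transfer_eq_pow (A := Subgroup.center (A.comap π)) ϕ g (key g)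
    rw [h1, Subtype.ext_iff, Subtype.ext_iff]
    show ((g ^ φ.ker.index : A.comap π) : P) = 1 ↔ _
    rw [hidx, Subgroup.coe_pow]
  have hmem : ∀ g, g ∈ τ.ker.map (A.comap π).subtype ↔ π g ∈ A ∧ g ^ N = 1 := by
    intro g
    constructor
    · rintro ⟨x, hx, rfl⟩
      exact ⟨x.2, (hτ x).1 hx⟩
    · rintro ⟨h1, h2⟩
      exact ⟨⟨g, h1⟩, (hτ _).2 h2, rfl⟩
  have hinj : ∀ g ∈ τ.ker.map (A.comap π).subtype, π g = 1 → g = 1 := by
    intro g hg h1
    have h2 := ((hmem g).1 hg).2
    have h3 : orderOf g ∣ N := orderOf_dvd_of_pow_eq_one h2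
    have h4 : orderOf g ∣ Nat.card π.ker := by
      have := orderOf_dvd_natCard (⟨g, h1⟩ : π.ker)
      rwa [← Subgroup.orderOf_coe] at this
    exact orderOf_eq_one_iff.1 (Nat.eq_one_of_dvd_coprimes hco h3 h4)
  have hmap : (τ.ker.map (A.comap π).subtype).map π = A := by
    apply le_antisymm
    · rintro _ ⟨g, hg, rfl⟩
      exact ((hmem g).1 hg).1
    · intro a ha
      obtain ⟨g, rfl⟩ := hs a
      obtain ⟨M, hM1, hM2⟩ := Nat.chineseRemainder hco 1 0
      have h1 : (π g) ^ N = 1 := by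
        have := pow_card_eq_one' (x := (⟨π g, ha⟩ : A))
        exact congrArg Subtype.val this
      refine ⟨g ^ M, (hmem _).2 ⟨?_, ?_⟩, ?_⟩
      · rw [map_pow]; exact A.pow_mem ha M
      · rw [← pow_mul, mul_comm, pow_mul]
        have h2 : g ^ N ∈ π.ker := by rw [MonoidHom.mem_ker, map_pow, h1]
        have h3 : (g ^ N) ^ Nat.card π.ker = 1 := by
          have := pow_card_eq_one' (x := (⟨g ^ N, h2⟩ : π.ker))
          exact congrArg Subtype.val this
        obtain ⟨k, hk⟩ := (Nat.modEq_zero_iff_dvd.1 hM2)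
        rw [hk, pow_mul, h3, one_pow]
      · rw [map_pow]
        have h2 : (π g) ^ M = (π g) ^ 1 := by
          rw [pow_eq_pow_iff_modEq]
          exact hM1.of_dvd (orderOf_dvd_of_pow_eq_one h1)
        rw [h2, pow_one]
  refine ⟨_, hmem, hmap, ?_, hinj⟩
  have h5 : Function.Injective (π.comp (τ.ker.map (A.comap π).subtype).subtype) := by
    rw [injective_iff_map_eq_one]
    intro x hx
    exact Subtype.ext (hinj x x.2 hx)
  have h6 : (π.comp (τ.ker.map (A.comap π).subtype).subtype).range = A := by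
    rw [MonoidHom.range_comp, Subgroup.range_subtype, hmap]
  have h7 : (π.comp (τ.ker.map (A.comap π).subtype).subtype).ker = ⊥ := (MonoidHom.ker_eq_bot_iff _).2 h5
  rw [hN, ← Nat.card_congr (MonoidHom.ofInjective h5).toEquiv.symm, h6]

/-- lifting an element of prime order `r` not dividing the kernel -/
theorem exists_lift_elem {P S : Type*} [Group P] [Finite P] [Group S] (π : P →* S) (hs : Function.Surjective π)
    {r : ℕ} (hco : r.Coprime (Nat.card π.ker)) {y : S} (hy : y ^ r = 1) : ∃ x : P, π x = y ∧ x ^ r = 1 := by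
  obtain ⟨g, rfl⟩ := hs y
  obtain ⟨M, hM1, hM2⟩ := Nat.chineseRemainder hco 1 0
  refine ⟨g ^ M, ?_, ?_⟩
  · rw [map_pow]
    have h2 : (π g) ^ M = (π g) ^ 1 := by
      rw [pow_eq_pow_iff_modEq]
      exact hM1.of_dvd (orderOf_dvd_of_pow_eq_one hy)
    rw [h2, pow_one]
  · rw [← pow_mul, mul_comm, pow_mul]
    have h2 : g ^ r ∈ π.ker := by rw [MonoidHom.mem_ker, map_pow, hy]
    have h3 : (g ^ r) ^ Nat.card π.ker = 1 := by
      have := pow_card_eq_one' (x := (⟨g ^ r, h2⟩ : π.ker))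
      exact congrArg Subtype.val this
    obtain ⟨k, hk⟩ := (Nat.modEq_zero_iff_dvd.1 hM2)
    rw [hk, pow_mul, h3, one_pow]

end Cfsg.Agent.H997.Emb
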