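import Cfsg.Agent.AutOrth.Gen
import Cfsg.Agent.H884.ElRows

/-!
# Opposite unipotent radicals of `Ω⁻_8(q)` (helper997)
-/

set_option autoImplicit false
set_option linter.unusedSectionVars false
set_option linter.unusedVariables false

namespace Cfsg.Agent.H997.Emb

open Module QuadraticMap Cfsg.Agent.LieClassical.OrthCore Cfsg.Agent.LieClassical.OrthTrans Cfsg.Agent.AutOrth.SemiSim
  Cfsg.Agent.AutOrth.Gen Cfsg.Agent.H955 Cfsg.Agent.H954.TSing Cfsg.Agent.H884.El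
open Cfsg.Agent.H951 (fx cm mem_fx mem_cm)

/-- `A` is a subgroup of order `N` normalised by `y` and without elements commuting with `y` -/
structure SOk {S : Type*} [Group S] (y : S) (N : ℕ) (A : Subgroup S) : Prop where
  card : Nat.card A = N
  nrm : ∀ a ∈ A, y * a * y⁻¹ ∈ A
  nrm' : ∀ a ∈ A, y⁻¹ * a * y ∈ A
  fpf : ∀ a ∈ A, y * a = a * y → a = 1

variable {K V : Type*} [Field K] [Fintype K] [AddCommGroup V] [Module K V] [FiniteDimensional K V]
  {Q : QuadraticForm K V} {S : Type*} [Group S] {π : E Q →* S} {r : ℕ}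

/-- the endomorphism -/
abbrev ee (g : E Q) : Module.End K V := ((g : V ≃ₗ[K] V) : V →ₗ[K] V)

/-- `g` of order `r` with the hyperbolic plane `⟨e, f⟩` as fixed space -/
structure HypFix (Q : QuadraticForm K V) (g : E Q) (r : ℕ) (e f : V) : Prop where
  iso : Iso Q (ee g) r
  hyp : Hyp Q e f
  ge : (g : V ≃ₗ[K] V) e = e
  gf : (g : V ≃ₗ[K] V) f = f
  fx2 : finrank K (fx (ee g)) = 2
  cm6 : finrank K (cm (ee g)) = 6

namespace HypFix

variable {g : E Q} {e f : V}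

theorem symm (h : HypFix Q g r e f) : HypFix Q g r f e := ⟨h.iso, h.hyp.symm, h.gf, h.ge, h.fx2, h.cm6⟩

theorem e_mem (h : HypFix Q g r e f) : e ∈ fx (ee g) := mem_fx.2 h.ge

theorem polar_fc (h : HypFix Q g r e f) {a c : V} (ha : a ∈ fx (ee g)) (hc : c ∈ cm (ee g)) : polar Q a c = 0 := by
  obtain ⟨u, rfl⟩ := mem_cm.1 hc
  have h1 : (g : V ≃ₗ[K] V) a = a := mem_fx.1 ha
  show polar Q a ((g : V ≃ₗ[K] V) u - u) = 0
  have h2 : polar Q ((g : V ≃ₗ[K] V) a) ((g : V ≃ₗ[K] V) u) = polar Q a u := by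
    unfold QuadraticMap.polar
    rw [← map_add, mem_O.1 (E_le_O g.2), mem_O.1 (E_le_O g.2), mem_O.1 (E_le_O g.2)]
  rw [h1] at h2
  rw [polar_sub_right, h2, sub_self]

/-- the fixed space is the hyperbolic plane -/
theorem mem_fx_iff (h : HypFix Q g r e f) {a : V} (ha : a ∈ fx (ee g)) : a = polar Q f a • e + polar Q e a • f := by
  have hli : LinearIndependent K ![e, f] := by
    rw [LinearIndependent.pair_iff]
    intro s t hst
    have h1 := congrArg (fun x => polar Q f x) hst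
    have h2 := congrArg (fun x => polar Q e x) hst
    simp only [polar_add_right, polar_smul_right, polar_zero_right, h.hyp.pair, h.hyp.pair', h.hyp.polar_left,
      h.hyp.polar_right, smul_eq_mul, mul_one, mul_zero, add_zero, zero_add] at h1 h2
    exact ⟨h1, h2⟩
  have hsp : Submodule.span K (Set.range ![e, f]) = fx (ee g) := by
    apply Submodule.eq_of_le_of_finrank_eq
    · rw [Submodule.span_le]
      rintro _ ⟨i, rfl⟩
      fin_cases i
      · exact h.e_mem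
      · exact h.symm.e_mem
    · rw [finrank_span_eq_card hli, h.fx2, Fintype.card_fin]
  rw [← hsp, Matrix.range_cons, Matrix.range_cons, Matrix.range_empty, Set.union_empty, Set.singleton_union,
    Submodule.mem_span_pair] at ha
  obtain ⟨s, t, rfl⟩ := ha
  simp only [polar_add_right, polar_smul_right, h.hyp.pair, h.hyp.pair', h.hyp.polar_left,
    h.hyp.polar_right, smul_eq_mul, mul_one, mul_zero, add_zero, zero_add]

theorem dec (h : HypFix Q g r e f) (z : V) : ∃ a ∈ fx (ee g), ∃ c ∈ cm (ee g), a + c = z := by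
  have h1 : z ∈ fx (ee g) ⊔ cm (ee g) := by rw [(H951.isCompl_fx_cm h.iso.ne0 h.iso.pow).sup_eq_top]; trivial
  exact Submodule.mem_sup.1 h1

theorem disj (h : HypFix Q g r e f) {z : V} (h1 : z ∈ fx (ee g)) (h2 : z ∈ cm (ee g)) : z = 0 := by
  have h3 : z ∈ fx (ee g) ⊓ cm (ee g) := ⟨h1, h2⟩
  rw [(H951.isCompl_fx_cm h.iso.ne0 h.iso.pow).inf_eq_bot] at h3
  exact (Submodule.mem_bot K).1 h3

theorem pe0 (h : HypFix Q g r e f) {u : V} (hu : u ∈ cm (ee g)) : polar Q e u = 0 := h.polar_fc h.e_mem hu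

/-- every Siegel element of `e` comes from `[V, g]` -/
theorem exists_u (h : HypFix Q g r e f) {t : E Q} (ht : t ∈ RS Q e h.hyp.left) :
    ∃ u, ∃ hu : u ∈ cm (ee g), t = sg Q e u h.hyp.left (h.pe0 hu) := by
  obtain ⟨w, hw, rfl⟩ := ht
  obtain ⟨a, ha, c, hc, rfl⟩ := h.dec w
  have h1 : polar Q e a = 0 := by
    rw [polar_add_right, h.pe0 hc, add_zero] at hw
    exact hw
  have h2 := h.mem_fx_iff ha
  rw [h1, zero_smul, add_zero] at h2
  refine ⟨c, hc, ?_⟩
  have h3 : a + c = c + polar Q f a • e := by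
    conv_lhs => rw [h2]
    exact add_comm _ _
  rw [← sg_add_smul (polar Q f a) h.hyp.left (h.pe0 hc) (by rw [← h3]; exact hw)]
  exact sg_congr _ _ _ _ rfl h3

theorem sg_inj (h : HypFix Q g r e f) {u u' : V} (hu : u ∈ cm (ee g)) (hu' : u' ∈ cm (ee g))
    (heq : sg Q e u h.hyp.left (h.pe0 hu) = sg Q e u' h.hyp.left (h.pe0 hu')) : u = u' := by
  have h1 := congrArg (fun t : E Q => (t : V ≃ₗ[K] V) f) heq
  simp only [sg_apply, h.hyp.pair, one_smul, mul_one] at h1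
  have h2 : u - u' = (polar Q u f + Q u - polar Q u' f - Q u') • e := by
    have h3 : (f + u - polar Q u f • e - Q u • e) - (f + u' - polar Q u' f • e - Q u' • e) = 0 := by
      rw [h1, sub_self]
    have h4 : u - u' = ((f + u - polar Q u f • e - Q u • e) - (f + u' - polar Q u' f • e - Q u' • e)) +
        (polar Q u f + Q u - polar Q u' f - Q u') • e := by module
    rw [h4, h3, zero_add]
  have h5 : u - u' ∈ fx (ee g) := by
    rw [h2]
    exact Submodule.smul_mem _ _ h.e_mem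
  exact sub_eq_zero.1 (h.disj h5 (Submodule.sub_mem _ hu hu'))

theorem ycm (_h : HypFix Q g r e f) {u : V} (hu : u ∈ cm (ee g)) : (g : V ≃ₗ[K] V) u ∈ cm (ee g) := H951.inv_cm u hu

theorem ycm' (_h : HypFix Q g r e f) {u : V} (hu : u ∈ cm (ee g)) : (g : V ≃ₗ[K] V).symm u ∈ cm (ee g) := by
  obtain ⟨z, rfl⟩ := mem_cm.1 hu
  refine mem_cm.2 ⟨(g : V ≃ₗ[K] V).symm z, ?_⟩
  show (g : V ≃ₗ[K] V) ((g : V ≃ₗ[K] V).symm z) - (g : V ≃ₗ[K] V).symm z = (g : V ≃ₗ[K] V).symm ((g : V ≃ₗ[K] V) z - z)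
  rw [map_sub, LinearEquiv.apply_symm_apply, LinearEquiv.symm_apply_apply]

theorem conj (h : HypFix Q g r e f) {u : V} (hu : u ∈ cm (ee g)) :
    g * sg Q e u h.hyp.left (h.pe0 hu) * g⁻¹ = sg Q e ((g : V ≃ₗ[K] V) u) h.hyp.left (h.pe0 (h.ycm hu)) := by
  have h1 : Q ((g : V ≃ₗ[K] V) e) = 0 := by rw [h.ge]; exact h.hyp.left
  have h2 : polar Q ((g : V ≃ₗ[K] V) e) ((g : V ≃ₗ[K] V) u) = 0 := by rw [h.ge]; exact h.pe0 (h.ycm hu)
  rw [conj_sg g h.hyp.left (h.pe0 hu) h1 h2]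
  exact sg_congr _ _ _ _ h.ge rfl

theorem conj' (h : HypFix Q g r e f) {u : V} (hu : u ∈ cm (ee g)) :
    g⁻¹ * sg Q e u h.hyp.left (h.pe0 hu) * g = sg Q e ((g : V ≃ₗ[K] V).symm u) h.hyp.left (h.pe0 (h.ycm' hu)) := by
  have h1 := h.conj (h.ycm' hu)
  have h2 : sg Q e ((g : V ≃ₗ[K] V) ((g : V ≃ₗ[K] V).symm u)) h.hyp.left (h.pe0 (h.ycm (h.ycm' hu))) =
      sg Q e u h.hyp.left (h.pe0 hu) := sg_congr _ _ _ _ rfl (LinearEquiv.apply_symm_apply _ _)
  rw [h2] at h1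
  rw [← h1]
  group

theorem card_RS (h : HypFix Q g r e f) : Nat.card (RS Q e h.hyp.left) = Nat.card K ^ 6 := by
  have h1 : Nat.card (cm (ee g)) = Nat.card K ^ 6 := by
    rw [Module.natCard_eq_pow_finrank (K := K), h.cm6]
  rw [← h1]
  symm
  refine Nat.card_congr (Equiv.ofBijective
    (fun u : cm (ee g) => (⟨sg Q e u h.hyp.left (h.pe0 u.2), sg_mem_RS _ _⟩ : RS Q e h.hyp.left)) ⟨?_, ?_⟩)
  · intro u u' huu
    exact Subtype.ext (h.sg_inj u.2 u'.2 (congrArg Subtype.val huu))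
  · rintro ⟨t, ht⟩
    obtain ⟨u, hu, rfl⟩ := h.exists_u ht
    exact ⟨⟨u, hu⟩, rfl⟩

/-- scalar Siegel elements are trivial -/
theorem scalar_one (h : HypFix Q g r e f) {t : E Q} (ht : t ∈ RS Q e h.hyp.left) {c : K}
    (hc : ∀ v, (t : V ≃ₗ[K] V) v = c • v) : t = 1 := by
  obtain ⟨w, hw, rfl⟩ := ht
  have h1 := hc e
  rw [sg_self] at h1
  have hc1 : c = 1 := by
    have h2 : (1 - c) • e = 0 := by rw [sub_smul, one_smul, ← h1, sub_self]
    rcases smul_eq_zero.1 h2 with h3 | h3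
    · exact (sub_eq_zero.1 h3).symm
    · exact absurd h3 h.hyp.left_ne
  refine ext_E fun v => ?_
  rw [hc, hc1, one_smul]
  rfl

theorem sok (h : HypFix Q g r e f) (hk : KerScalar π) : SOk (π g) (Nat.card K ^ 6) ((RS Q e h.hyp.left).map π) := by
  have hinj : ∀ t ∈ RS Q e h.hyp.left, π t = 1 → t = 1 := fun t ht h1 => by
    obtain ⟨c, hc⟩ := hk t h1
    exact h.scalar_one ht hc
  refine ⟨?_, ?_, ?_, ?_⟩
  · rw [← h.card_RS]
    have h5 : Function.Injective (π.comp (RS Q e h.hyp.left).subtype) := by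
      rw [injective_iff_map_eq_one]
      intro x hx
      exact Subtype.ext (hinj x x.2 hx)
    rw [Nat.card_congr (MonoidHom.ofInjective h5).toEquiv, MonoidHom.range_comp, Subgroup.range_subtype]
  · rintro _ ⟨t, ht, rfl⟩
    obtain ⟨u, hu, rfl⟩ := h.exists_u ht
    exact ⟨_, sg_mem_RS h.hyp.left (h.pe0 (h.ycm hu)), by rw [← h.conj hu, map_mul, map_mul, map_inv]⟩
  · rintro _ ⟨t, ht, rfl⟩
    obtain ⟨u, hu, rfl⟩ := h.exists_u ht
    exact ⟨_, sg_mem_RS h.hyp.left (h.pe0 (h.ycm' hu)), by rw [← h.conj' hu, map_mul, map_mul, map_inv]⟩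
  · rintro _ ⟨t, ht, rfl⟩ hcomm
    obtain ⟨u, hu, rfl⟩ := h.exists_u ht
    have h1 : sg Q e ((g : V ≃ₗ[K] V) u) h.hyp.left (h.pe0 (h.ycm hu)) * (sg Q e u h.hyp.left (h.pe0 hu))⁻¹ = 1 := by
      apply hinj
      · exact Subgroup.mul_mem _ (sg_mem_RS _ _) (Subgroup.inv_mem _ (sg_mem_RS _ _))
      · rw [← h.conj hu, map_mul, map_mul, map_mul, map_inv, map_inv, hcomm, mul_assoc (π _) (π g), mul_inv_cancel,
          mul_one, mul_inv_cancel]
    have h2 := h.sg_inj (h.ycm hu) hu (mul_inv_eq_one.1 h1)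
    have h3 : u = 0 := h.disj (mem_fx.2 h2) hu
    have h4 : sg Q e u h.hyp.left (h.pe0 hu) = 1 := by
      rw [← sg_zero h.hyp.left (by simp)]
      exact sg_congr _ _ _ _ rfl h3
    rw [h4, map_one]

end HypFix

/-- **Opposite radicals** for a form of minus type in dimension `8`. -/
theorem exists_opp (hG : Good Q) (hd : finrank K V = 8) (hm : ¬ IsPlus Q) (hπ : Function.Surjective π)
    (hk : KerScalar π) (hr : PP (Nat.card K) 6 r) {y : S} (hy : y ^ r = 1) (hy1 : y ≠ 1) :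
    ∃ A A' : Subgroup S, A ⊔ A' = ⊤ ∧ SOk y (Nat.card K ^ 6) A ∧ SOk y (Nat.card K ^ 6) A' := by
  have hodd : Odd r := hr.odd (by omega)
  obtain ⟨g₀, rfl⟩ := hπ y
  obtain ⟨g, hg, hgr⟩ : ∃ g, π g = π g₀ ∧ g ^ r = 1 := by
    have h1 : π (g₀ ^ r) = 1 := by rw [map_pow, hy]
    obtain ⟨c, hc⟩ := hk _ h1
    have hc2 : c * c = 1 := by
      obtain ⟨a, b, hab⟩ := hG.exists_hyp
      have h2 : Q (a + b) = 1 := by
        rw [Q_add, hab.left, hab.right, hab.pair]; simp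
      have h3 := mem_O.1 (E_le_O (g₀ ^ r).2) (a + b)
      rw [hc, QuadraticMap.map_smul, h2, smul_eq_mul, mul_one] at h3
      exact h3
    have h2 : (g₀ ^ r) ^ 2 = 1 := by
      refine ext_E fun v => ?_
      rw [pow_two]
      show ((g₀ ^ r : E Q) : V ≃ₗ[K] V) (((g₀ ^ r : E Q) : V ≃ₗ[K] V) v) = v
      rw [hc, hc, smul_smul, hc2, one_smul]
    obtain ⟨k, hk'⟩ := hodd
    refine ⟨g₀ ^ (r + 1), by rw [map_pow, pow_succ, hy, one_mul], ?_⟩
    have h3 : (r + 1) * r = r * 2 * (k + 1) := by rw [hk']; ring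
    rw [← pow_mul, h3, pow_mul, pow_mul, h2, one_pow]
  rw [← hg] at hy1 ⊢
  have hfin : Finite V := Module.finite_of_finite K
  have hx : (ee g) ^ r = 1 := by
    have h1 : ((g ^ r : E Q) : V ≃ₗ[K] V) = 1 := by rw [hgr]; rfl
    rw [Subgroup.coe_pow] at h1
    refine LinearMap.ext fun v => ?_
    have h2 : ∀ n : ℕ, ((ee g) ^ n) v = ((g : V ≃ₗ[K] V) ^ n) v := by
      intro n
      induction n with
      | zero => rfl
      | succ n ih => rw [pow_succ', pow_succ', Module.End.mul_apply, ih]; rfl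
    rw [h2, h1]
    rfl
  have hiso : Iso Q (ee g) r := Iso.mk' hr (by omega) hx fun v => mem_O.1 (E_le_O g.2) v
  have hx1 : ee g ≠ 1 := by
    intro h1
    apply hy1
    have h2 : g = 1 := ext_E fun v => by
      have := congrArg (fun t : Module.End K V => t v) h1
      exact this
    rw [h2, map_one]
  obtain ⟨hcm, hnp⟩ := hiso.even_case hG.nondeg hx1 hr (by decide) (by rw [hd]; omega)
  have hfx : finrank K (fx (ee g)) = 2 := by
    have := hiso.finrank_add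
    omega
  have hpl : IsPlus (res Q (fx (ee g))) := by
    have h1 := hiso.isPlus_fx hG.nondeg (by rw [hd]; decide) (by rw [hcm]; decide)
    by_contra h2
    exact hm (h1.2 ⟨fun h => absurd h hnp, fun h => absurd h h2⟩)
  obtain ⟨U, hU, hUd⟩ := hpl
  rw [hfx] at hUd
  obtain ⟨e', he', he0⟩ := (Submodule.ne_bot_iff U).1 (by
    rintro rfl
    rw [finrank_bot] at hUd
    omega)
  have hQe : Q (e' : V) = 0 := hU e' he'
  have he : (e' : V) ≠ 0 := fun h => he0 (Subtype.ext h)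
  -- the partner
  have hfc : ∀ a ∈ fx (ee g), ∀ c ∈ cm (ee g), polar Q a c = 0 := by
    intro a ha c hc
    obtain ⟨u, rfl⟩ := mem_cm.1 hc
    have h1 : (g : V ≃ₗ[K] V) a = a := mem_fx.1 ha
    show polar Q a ((g : V ≃ₗ[K] V) u - u) = 0
    have h2 : polar Q ((g : V ≃ₗ[K] V) a) ((g : V ≃ₗ[K] V) u) = polar Q a u := by
      unfold QuadraticMap.polar
      rw [← map_add, mem_O.1 (E_le_O g.2), mem_O.1 (E_le_O g.2), mem_O.1 (E_le_O g.2)]
    rw [h1] at h2
    rw [polar_sub_right, h2, sub_self]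
  obtain ⟨z, hz⟩ := hG.nondeg.exists_polar_eq he 1
  have hz' : z ∈ fx (ee g) ⊔ cm (ee g) := by rw [(H951.isCompl_fx_cm hiso.ne0 hiso.pow).sup_eq_top]; trivial
  obtain ⟨a, ha, c, hc, rfl⟩ := Submodule.mem_sup.1 hz'
  rw [polar_add_right, hfc _ e'.2 _ hc, add_zero] at hz
  have hf : Hyp Q (e' : V) (a - Q a • (e' : V)) := by
    refine ⟨hQe, ?_, ?_⟩
    · rw [sub_eq_add_neg, Q_add, ← neg_smul, QuadraticMap.map_smul, hQe, polar_smul_right, polar_comm, hz]
      simp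
    · rw [polar_sub_right, polar_smul_right, hz, polar_self_of_sing hQe, smul_zero, sub_zero]
  have hff : a - Q a • (e' : V) ∈ fx (ee g) := Submodule.sub_mem _ ha (Submodule.smul_mem _ _ e'.2)
  have H : HypFix Q g r (e' : V) (a - Q a • (e' : V)) := ⟨hiso, hf, mem_fx.1 e'.2, mem_fx.1 hff, hfx, hcm⟩
  refine ⟨_, _, ?_, H.sok hk, H.symm.sok hk⟩
  rw [← Subgroup.map_sup, sup_RS_eq_top hG hf, Subgroup.map_top_of_surjective _ hπ]

end Cfsg.Agent.H997.Emb
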